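import Cfsg.Agent.H116.CY.RowE8
import Cfsg.Agent.H776.CY.Congr

/-!
# S4829 : the rows `f4`, `g2`, `e8` from the case `p ∣ q - 1` (helper541; the elliptic cases are helper116's)
-/

set_option autoImplicit false
set_option linter.unusedSectionVars false

namespace Cfsg.Agent.H541.CY

open Cfsg Cfsg.Lie Cfsg.Agent.H770.CY Cfsg.Agent.H116.CY

variable {p : ℕ} [hp : Fact p.Prime]

/-- **the row `f4`** from the case `p ∣ q - 1` -/
theorem rowForA_f4_of (h1 : ∀ (F : Type) [Field F] [Fintype F] [Fintype ↥(chevF4.group F)], (p : F) ≠ 0 →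
      p ∣ Fintype.card F - 1 → RowA p ↥(chevF4.group F)) :
    RowForA p (fun X _ => ∃ (F : Type) (_ : Field F) (_ : Fintype F), (p : F) ≠ 0 ∧
      Nonempty (X ≃* Lie.chevF4.group F)) := by
  intro X _ _ _ _ hd hX
  obtain ⟨F, _, _, hpF, ⟨e⟩⟩ := hX
  have hfin : Finite ↥(chevF4.group F) := Finite.of_equiv X e.toEquiv
  have := Fintype.ofFinite ↥(chevF4.group F)
  have hG : p ∣ Nat.card ↥(chevF4.group F) := by rwa [← Nat.card_congr e.toEquiv]
  exact H776.CY.RowA.congr e (rowA_F4_of hpF hG fun hd1 => h1 F hpF hd1)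

/-- **the row `g2`** from the case `p ∣ q - 1` -/
theorem rowForA_g2_of (h1 : ∀ (F : Type) [Field F] [Fintype F] [Fintype ↥(chevG2.group F)], (p : F) ≠ 0 →
      p ∣ Fintype.card F - 1 → RowA p ↥(chevG2.group F)) :
    RowForA p (fun X _ => ∃ (F : Type) (_ : Field F) (_ : Fintype F), (p : F) ≠ 0 ∧ 3 ≤ Fintype.card F ∧
      Nonempty (X ≃* Lie.chevG2.group F)) := by
  intro X _ _ _ _ hd hX
  obtain ⟨F, _, _, hpF, _, ⟨e⟩⟩ := hX
  have hfin : Finite ↥(chevG2.group F) := Finite.of_equiv X e.toEquiv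
  have := Fintype.ofFinite ↥(chevG2.group F)
  have hG : p ∣ Nat.card ↥(chevG2.group F) := by rwa [← Nat.card_congr e.toEquiv]
  exact H776.CY.RowA.congr e (rowA_G2_of hpF hG fun hd1 => h1 F hpF hd1)

end Cfsg.Agent.H541.CY
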